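import Cfsg.Agent.H572.DP.Hall
import Cfsg.Agent.H199.DP.GVIso
import Cfsg.Agent.H640.DP.CentYS
import Cfsg.Agent.H602.DP.Min
import Cfsg.Agent.S0270
import Cfsg.Prelude.Def_KGroupFacts
import Cfsg.Prelude.Def_LieTypeChar

/-!
# S4247, row `PSp`, characteristic not in `π`: the case `C_V(T) ≠ 0` (helper572, statement of helper602)
-/

set_option autoImplicit false
set_option linter.unusedSectionVars false

namespace Cfsg.Agent.H572.DP

open Module Subgroup Cfsg Matrix Cfsg.Agent.H167.OP Cfsg.Agent.H170.HL Cfsg.Agent.H988.CPi Cfsg.Agent.H571.RV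
  Cfsg.Agent.H572.RV Cfsg.Agent.H817.DPi Cfsg.Agent.H602.DP

universe u

section abs

theorem mem_of_coprime_pow {G : Type*} [Group G] {C : Subgroup G} {h : G} {a b : ℕ} (hab : Nat.Coprime a b)
    (ha : h ^ a ∈ C) (hb : h ^ b ∈ C) : h ∈ C := by
  have h1 : h = (h ^ a) ^ (Nat.gcdA a b) * (h ^ b) ^ (Nat.gcdB a b) := by
    have h2 := Nat.gcd_eq_gcd_ab a b
    rw [hab] at h2
    rw [← zpow_natCast h a, ← zpow_natCast h b, ← _root_.zpow_mul, ← _root_.zpow_mul, ← _root_.zpow_add, ← h2, Nat.cast_one, zpow_one]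
  rw [h1]
  exact C.mul_mem (C.zpow_mem ha _) (C.zpow_mem hb _)

/-- an `r`-element outside a normal subgroup of `r`-power index -/
theorem exists_relement {G : Type*} [Group G] [Finite G] {H C : Subgroup G} {r : ℕ} (hr : r.Prime)
    (hn : ∀ h ∈ H, ∀ c ∈ C, h * c * h⁻¹ ∈ C) (hrel : ∀ s : ℕ, s.Prime → s ∣ C.relIndex H → s = r)
    (hnc : ¬ H ≤ C) : ∃ x ∈ H, x ∉ C ∧ ∃ j : ℕ, x ^ r ^ j = 1 := by
  have hN : (C.subgroupOf H).Normal := by
    refine ⟨fun n hn' g => ?_⟩
    exact hn g g.2 n hn'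
  have hrel0 : C.relIndex H ≠ 0 := ne_zero_of_dvd_ne_zero Nat.card_pos.ne' (Subgroup.relIndex_dvd_card C H)
  have hrw := Nat.eq_prime_pow_of_unique_prime_dvd hrel0 (fun {d} hd hdv => hrel d hd hdv)
  set w := (C.relIndex H).primeFactorsList.length
  obtain ⟨h, hhH, hhC⟩ := SetLike.not_le_iff_exists.mp hnc
  obtain ⟨a, b, hb, hab⟩ := Nat.exists_eq_pow_mul_and_not_dvd (orderOf_pos h).ne' r hr.ne_one
  refine ⟨h ^ b, H.pow_mem hhH b, fun hC => ?_, a, ?_⟩
  · have h1 : h ^ r ^ w ∈ C := by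
      have h2 := Subgroup.pow_index_mem (C.subgroupOf H) (⟨h, hhH⟩ : H)
      rw [← hrw]
      exact h2
    exact hhC (mem_of_coprime_pow (((Nat.Prime.coprime_iff_not_dvd hr).mpr hb).symm.pow_right w) hC h1)
  · rw [← pow_mul, mul_comm, ← hab, pow_orderOf_eq_one]

/-- a homomorphism from the image of a subgroup -/
theorem exists_surj {G S X : Type*} [Group G] [Group S] [Group X] (φ : G →* S) (N : Subgroup G) (ψ : N →* X)
    (hψ : Function.Surjective ψ) (hk : ∀ g : N, φ g = 1 → ψ g = 1) :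
    ∃ f : N.map φ →* X, Function.Surjective f := by
  have hs : Function.Surjective (φ.subgroupMap N) := φ.subgroupMap_surjective N
  have hle : (φ.subgroupMap N).ker ≤ ψ.ker := by
    intro g hg
    exact hk g (congrArg Subtype.val (MonoidHom.mem_ker.mp hg))
  refine ⟨(φ.subgroupMap N).liftOfSurjective hs ⟨ψ, hle⟩, fun x => ?_⟩
  obtain ⟨g, rfl⟩ := hψ x
  exact ⟨φ.subgroupMap N g, MonoidHom.liftOfRightInverse_comp_apply _ _ _ _ g⟩

theorem center_bot {S : Type u} [Group S] [IsSimpleGroup S] (hna : ¬ IsMulCommutative S) : center S = ⊥ := by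
  rcases (inferInstance : (center S).Normal).eq_bot_or_eq_top with h | h
  · exact h
  · exfalso
    apply hna
    refine ⟨⟨fun a b => ?_⟩⟩
    have : a ∈ center S := by rw [h]; trivial
    exact (Subgroup.mem_center_iff.mp this b).symm

end abs

/-- `PSp_2k(F)` is not commutative -/
theorem psp_nc {F : Type*} [Field F] [Fintype F] {k : ℕ} (hk : 3 ≤ k) : ¬ IsMulCommutative (PSp k F) := by
  intro hc
  have hs : IsSimpleGroup (PSp k F) := Cfsg.Agent.S0270.result k (by omega) (fun h => by omega)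
  have h1 := Cfsg.Agent.S0269.result (F := F) k (Or.inl hk)
  have h2 : commutator (symplecticGroup (Fin k) F) ≤ center (symplecticGroup (Fin k) F) := by
    rw [commutator_def, Subgroup.commutator_le]
    intro a _ b _
    rw [← QuotientGroup.eq_one_iff, ← QuotientGroup.mk'_apply, map_commutatorElement, commutatorElement_eq_one_iff_mul_comm]
    exact hc.is_comm.comm _ _
  rw [h1] at h2
  obtain ⟨x, hx⟩ := exists_ne (1 : PSp k F)
  obtain ⟨y, rfl⟩ := QuotientGroup.mk_surjective x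
  apply hx
  rw [QuotientGroup.eq_one_iff]
  exact h2 trivial

section YS

variable {S : Type*} [Group S] {F : Type*} [Field F] {m p : ℕ} {φ : symplecticGroup (Fin m) F →* S}
  {T : Subgroup (symplecticGroup (Fin m) F)}

/-- the automorphisms which stabilise `φ T` stabilise the centralizer of `YS φ p T` -/
theorem cent_le (α : MulAut S) (hα : ∀ z ∈ T, ∃ z' ∈ T, α (φ z) = φ z') {c : S}
    (hc : c ∈ centralizer (YS φ p T : Set S)) : α c ∈ centralizer (YS φ p T : Set S) := by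
  rw [YS, Subgroup.centralizer_closure, Subgroup.mem_centralizer_iff] at hc ⊢
  rintro y ⟨⟨j, hj⟩, hy⟩
  have h1 : α⁻¹ y ∈ {y : S | (∃ j : ℕ, y ^ p ^ j = 1) ∧ ∀ z ∈ T, φ z * y = y * φ z} := by
    refine ⟨⟨j, by rw [← map_pow, hj, map_one]⟩, fun z hz => ?_⟩
    apply α.injective
    obtain ⟨z', hz', h2⟩ := hα z hz
    rw [map_mul, map_mul, h2]
    have h3 : α (α⁻¹ y) = y := MulEquiv.apply_symm_apply α y
    rw [h3, hy z' hz']
  have h2 := congrArg α (hc _ h1)
  have h3 : α (α⁻¹ y) = y := MulEquiv.apply_symm_apply α y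
  rw [map_mul, map_mul, h3] at h2
  exact h2

end YS

/-- **caseB** -/
theorem caseB {π : Set ℕ} {S : Type u} [Group S] [Finite S] [IsSimpleGroup S] (hna : ¬ IsMulCommutative S)
    {F : Type} [Field F] [Fintype F] {m p : ℕ} [CharP F p] (hp : p.Prime) (hm : 2 ≤ m)
    (φ : symplecticGroup (Fin m) F →* S) (hφ : Function.Surjective φ)
    (hker : ∀ k, φ k = 1 ↔ k ∈ center (symplecticGroup (Fin m) F))
    {P : Subgroup S} {K B : Subgroup (MulAut S)} (hC : Cfg π P K B) (hIH : IH π P K)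
    {H : Subgroup (symplecticGroup (Fin m) F)} (hH : IsPiHall π H) (hHP : H.map φ = P)
    {r t : ℕ} (hr : r.Prime) (hrt : r < t) {T : Subgroup (symplecticGroup (Fin m) F)}
    (hTS : TS (rep (SpRow.inc m F)) (SpRow.frm m F) (fun _ => 0) t T) (hTH : T ≤ H)
    (hn : H ≤ normalizer (T : Set (symplecticGroup (Fin m) F)))
    (hnc : ¬ H ≤ centralizer (T : Set (symplecticGroup (Fin m) F)))
    (hrel : ∀ s : ℕ, s.Prime → s ∣ (centralizer (T : Set (symplecticGroup (Fin m) F))).relIndex H → s = r)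
    {k : ℕ} (hk : 3 ≤ k) (h2k : 2 * k ≤ finrank F (CV (rep (SpRow.inc m F)) T))
    (h0 : Orth (SpRow.frm m F) (CV (rep (SpRow.inc m F)) T) ≠ ⊥)
    -- `pel` (task D)
    (hpel : ∀ u : symplecticGroup (Fin m) F, (∃ j : ℕ, u ^ p ^ j = 1) → (∀ z ∈ T, z * u = u * z) →
      ∀ x ∈ CV (rep (SpRow.inc m F)) T, rep (SpRow.inc m F) u x = x)
    -- `excl` (task EXCL)
    (hex : ∀ (X : Type u) [Group X] [Finite X] [IsSimpleGroup X], ¬ IsMulCommutative X →
      IsLieTypeChar p X → Cls π X → (∀ P : Subgroup X, IsPiHall π P → Group.IsNilpotent P) ∨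
        Nonempty (X ≃* Matrix.ProjectiveSpecialLinearGroup (Fin 3) (ZMod 2)) ∨
        Nonempty (X ≃* Matrix.ProjectiveSpecialLinearGroup (Fin 5) (ZMod 2)))
    -- `psp_ne` (task X)
    (hne : ∀ k : ℕ, 3 ≤ k → ¬ Nonempty (PSp k F ≃* Matrix.ProjectiveSpecialLinearGroup (Fin 3) (ZMod 2)) ∧
      ¬ Nonempty (PSp k F ≃* Matrix.ProjectiveSpecialLinearGroup (Fin 5) (ZMod 2))) : False := by
  classical
  set ρ := rep (SpRow.inc m F) with hρ
  set V₁ := CV ρ T with hV₁
  have hG : IsoG ρ (SpRow.frm m F) (fun _ => 0) := hTS.toIsoG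
  have hnd : ND (SpRow.frm m F) V₁ := nd_CV hG hTS.card_ne
  have hHU : ∀ g ∈ H, V₁.map (ρ g) = V₁ := by
    intro g hg
    apply map_eq_of_le
    apply CV_conj_le
    intro d hd
    exact (Subgroup.mem_normalizer_iff.mp (hn hg) d).mp hd
  set N : Subgroup (symplecticGroup (Fin m) F) := GV V₁ with hN
  have hHN : H ≤ normalizer (N : Set (symplecticGroup (Fin m) F)) := by
    have key : ∀ g ∈ H, ∀ x ∈ N, g * x * g⁻¹ ∈ N := by
      intro g hg x hx w hw
      have h1 : ρ g⁻¹ w ∈ Orth (SpRow.frm m F) V₁ := by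
        rw [← Orth_map_of_map hG (map_inv_of_map (hHU g hg))]
        exact ⟨w, hw, rfl⟩
      show ρ (g * x * g⁻¹) w = w
      rw [mul_ap, mul_ap, hx _ h1, ap_inv]
    intro g hg
    rw [Subgroup.mem_normalizer_iff]
    intro x
    refine ⟨key g hg x, fun hx => ?_⟩
    have h1 := key g⁻¹ (H.inv_mem hg) _ hx
    have h2 : g⁻¹ * (g * x * g⁻¹) * g⁻¹⁻¹ = x := by group
    rwa [h2] at h1
  -- the Hall subgroup of `N`
  have hY := hall_inf hH hHN
  -- the centralizer of `YS φ p T`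
  obtain ⟨hcent, y, hyY, hy1⟩ := Cfsg.Agent.H640.DP.cent_YS φ hφ hker hm hp hTS.card_odd hpel hnd h0
  have htop : centralizer (YS φ p T : Set S) ≠ ⊤ := by
    intro h
    apply hy1
    have h1 : y ∈ center S := by
      rw [Subgroup.mem_center_iff]
      intro x
      have h2 : x ∈ centralizer (YS φ p T : Set S) := by rw [h]; trivial
      exact (Subgroup.mem_centralizer_iff.mp h2 y hyY).symm
    rwa [center_bot hna, Subgroup.mem_bot] at h1
  have hPn : P ≤ normalizer (centralizer (YS φ p T : Set S) : Set S) := by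
    rw [← hHP]
    have key : ∀ g ∈ H, ∀ x ∈ centralizer (YS φ p T : Set S), φ g * x * (φ g)⁻¹ ∈ centralizer (YS φ p T : Set S) := by
      intro g hg x hx
      refine cent_le (MulAut.conj (φ g)) (fun z hz => ⟨g * z * g⁻¹, ?_, ?_⟩) hx
      · exact (Subgroup.mem_normalizer_iff.mp (hn hg) z).mp hz
      · rw [MulAut.conj_apply, map_mul, map_mul, map_inv]
    rintro _ ⟨g, hg, rfl⟩
    rw [Subgroup.mem_normalizer_iff]
    intro x
    refine ⟨key g hg x, fun hx => ?_⟩
    have h1 := key g⁻¹ (H.inv_mem hg) _ hx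
    rw [map_inv] at h1
    have h2 : (φ g)⁻¹ * (φ g * x * (φ g)⁻¹) * (φ g)⁻¹⁻¹ = x := by group
    rwa [h2] at h1
  have hKs : K ≤ stab (centralizer (YS φ p T : Set S)) := by
    have key : ∀ κ ∈ K, ∀ x ∈ centralizer (YS φ p T : Set S), κ x ∈ centralizer (YS φ p T : Set S) := by
      intro κ hκ x hx
      refine cent_le κ (fun z hz => ⟨z, hz, ?_⟩) hx
      apply hC.fix κ hκ
      rw [← hHP]
      exact ⟨z, hTH hz, rfl⟩
    intro κ hκ
    rw [mem_stab]
    apply le_antisymm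
    · rintro _ ⟨x, hx, rfl⟩
      exact key κ hκ x hx
    · intro x hx
      exact ⟨κ⁻¹ x, key κ⁻¹ (K.inv_mem hκ) x hx, MulEquiv.apply_symm_apply κ x⟩
  -- the factor group
  obtain ⟨k', hk', ⟨e⟩⟩ := Cfsg.Agent.H199.DP.GV_iso V₁ hnd
  have hk3 : 3 ≤ k' := by omega
  have hsimple : IsSimpleGroup (PSp k' F) := Cfsg.Agent.S0270.result k' (by omega) (fun h => by omega)
  have hsimple' : IsSimpleGroup (ULift.{u} (PSp k' F)) :=
    (MulEquiv.isSimpleGroup_congr MulEquiv.ulift).2 hsimple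
  let ψ : N →* ULift.{u} (PSp k' F) :=
    ((MulEquiv.ulift.symm : PSp k' F ≃* ULift.{u} (PSp k' F)) : PSp k' F →* ULift.{u} (PSp k' F)).comp
      ((QuotientGroup.mk' (center (symplecticGroup (Fin k') F))).comp (e : N →* symplecticGroup (Fin k') F))
  have hψ : Function.Surjective ψ :=
    (MulEquiv.ulift.symm : PSp k' F ≃* ULift.{u} (PSp k' F)).surjective.comp
      ((QuotientGroup.mk'_surjective _).comp e.surjective)
  have hψk : ∀ g : N, ψ g = 1 ↔ e g ∈ center (symplecticGroup (Fin k') F) := by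
    intro g
    rw [← QuotientGroup.eq_one_iff]
    constructor
    · intro h
      exact (MulEquiv.ulift.symm : PSp k' F ≃* ULift.{u} (PSp k' F)).injective (h.trans (map_one _).symm)
    · intro h
      show MulEquiv.ulift.symm ((e g : symplecticGroup (Fin k') F) : PSp k' F) = 1
      rw [h, map_one]
  have hcl : Cls π (ULift.{u} (PSp k' F)) := by
    obtain ⟨f, hf⟩ := exists_surj φ N ψ hψ (fun g hg => by
      rw [hψk, Subgroup.mem_center_iff]
      intro x
      obtain ⟨x, rfl⟩ := e.surjective x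
      rw [← map_mul, ← map_mul]
      congr 1
      apply Subtype.ext
      exact Subgroup.mem_center_iff.mp ((hker _).mp hg) x)
    have h1 := hIH _ htop hPn hKs (ULift.{u} (PSp k' F)) (by
      intro hc
      apply psp_nc (F := F) hk3
      refine ⟨⟨fun a b => ?_⟩⟩
      exact congrArg ULift.down (hc.is_comm.comm (ULift.up a) (ULift.up b)))
    rw [hcent] at h1
    exact h1 f hf
  have hnil : ∀ P : Subgroup (ULift.{u} (PSp k' F)), IsPiHall π P → Group.IsNilpotent P := by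
    rcases hex (ULift.{u} (PSp k' F)) (by
      intro hc
      apply psp_nc (F := F) hk3
      refine ⟨⟨fun a b => ?_⟩⟩
      exact congrArg ULift.down (hc.is_comm.comm (ULift.up a) (ULift.up b)))
      (Or.inr (Or.inl ⟨F, inferInstance, inferInstance, inferInstance, k', by omega, fun h => by omega,
        ⟨MulEquiv.ulift⟩⟩)) hcl with h | ⟨⟨i⟩⟩ | ⟨⟨i⟩⟩
    · exact h
    · exact ((hne k' hk3).1 ⟨MulEquiv.ulift.symm.trans i⟩).elim
    · exact ((hne k' hk3).2 ⟨MulEquiv.ulift.symm.trans i⟩).elim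
  have hYn : Group.IsNilpotent (H.subgroupOf N) := by
    have h1 := hnil _ (isPiHall_map hY ψ hψ)
    refine Subgroup.isNilpotent_of_ker_le_center (ψ.subgroupMap (H.subgroupOf N)) ?_
    intro a ha
    have h2 : ψ (a : N) = 1 := congrArg Subtype.val (MonoidHom.mem_ker.mp ha)
    rw [hψk, Subgroup.mem_center_iff] at h2
    rw [Subgroup.mem_center_iff]
    intro b
    apply Subtype.ext
    apply e.injective
    have h3 := h2 (e (b : N))
    rw [← map_mul, ← map_mul] at h3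
    exact h3
  -- the `r`-element
  obtain ⟨x, hx, hxC, j, hj⟩ := exists_relement (H := H)
    (C := centralizer (T : Set (symplecticGroup (Fin m) F))) hr (by
      intro h hh c hc
      rw [Subgroup.mem_centralizer_iff] at hc ⊢
      intro z hz
      have h1 : h⁻¹ * z * h ∈ T := by
        have := (Subgroup.mem_normalizer_iff.mp (hn (H.inv_mem hh)) z).mp hz
        rwa [inv_inv] at this
      have h2 := hc _ h1
      calc z * (h * c * h⁻¹) = h * ((h⁻¹ * z * h) * c) * h⁻¹ := by group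
        _ = h * (c * (h⁻¹ * z * h)) * h⁻¹ := by rw [h2]
        _ = h * c * h⁻¹ * z := by group) hrel hnc
  have hxU : ∀ u ∈ V₁, ρ x u ∈ V₁ := fun u hu => mem_of_map (hHU x hx) hu
  obtain ⟨x₁, hx₁⟩ := hG.exists_part hnd hxU
  have hx₁H : x₁ ∈ H := part_mem hG hnd hHU hH hx hx₁
  have hx₁j := hx₁.tel hG hnd hxU ⟨j, hj⟩
  obtain ⟨j', hj'⟩ := hx₁j
  apply hxC
  rw [Subgroup.mem_centralizer_iff]
  intro z hz
  have hzN : z ∈ N := fun w hw => (mem_Orth_CV hG).mp hw z hz
  have hx₁N : x₁ ∈ N := hx₁.2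
  obtain ⟨i, hi⟩ := hTS.hT ⟨z, hz⟩
  have hi' : z ^ t ^ i = 1 := congrArg Subtype.val hi
  have hcomm : x₁ * z = z * x₁ := by
    have h1 : Commute (⟨⟨x₁, hx₁N⟩, hx₁H⟩ : H.subgroupOf N) ⟨⟨z, hzN⟩, hTH hz⟩ := by
      apply Cfsg.Agent.OddOrderLocal.CNBasic.commute_of_coprime_orderOf
      have h2 : orderOf (⟨⟨x₁, hx₁N⟩, hx₁H⟩ : H.subgroupOf N) ∣ r ^ j' :=
        orderOf_dvd_of_pow_eq_one (Subtype.ext (Subtype.ext hj'))
      have h3 : orderOf (⟨⟨z, hzN⟩, hTH hz⟩ : H.subgroupOf N) ∣ t ^ i :=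
        orderOf_dvd_of_pow_eq_one (Subtype.ext (Subtype.ext hi'))
      exact Nat.Coprime.coprime_dvd_left h2 (Nat.Coprime.coprime_dvd_right h3
        (((Nat.coprime_primes hr hTS.ht).mpr hrt.ne).pow _ _))
    exact congrArg (fun a : H.subgroupOf N => ((a : N) : symplecticGroup (Fin m) F)) h1
  have hzU : ∀ u ∈ V₁, ρ z u ∈ V₁ := fun u hu => mem_of_map (hHU z (hTH hz)) hu
  refine eq_of_parts hG.inj hnd (fun u hu => ?_) (fun w hw => ?_)
  · rw [mul_ap, mul_ap, ← hx₁.1 u hu, ← hx₁.1 _ (hzU u hu), ← mul_ap, ← mul_ap, hcomm]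
  · have h1 : ρ x w ∈ Orth (SpRow.frm m F) V₁ := mem_of_map (Orth_map_of_map hG (hHU x hx)) hw
    have h2 := hzN w hw
    have h3 := hzN _ h1
    show ρ (z * x) w = ρ (x * z) w
    rw [mul_ap, mul_ap]
    exact h3.trans (congrArg (ρ x) h2).symm

end Cfsg.Agent.H572.DP
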